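import Cfsg.Agent.H698.U33.All
import Cfsg.Agent.H698.U33.Clo.Dat

/-!
# S5525: elements of `R` commuting with or inverting the representatives (helper698; data of helper819, helper763)
-/

set_option autoImplicit false
set_option maxRecDepth 100000
set_option Elab.async false

namespace Cfsg.Agent.H698.U33.Clo

theorem cen14 : cenb 18 3510 ps18 base7 rgR x14 [0, 2] 0 = true := by decide +kernel
theorem cen32 : cenb 18 3510 ps18 base7 rgR x32 [0, 2] 0 = true := by decide +kernel
theorem cen160 : cenb 18 3510 ps18 base7 rgR x160 [1, 0, 1, 2, 0, 4, 3, 4] 0 = true := by decide +kernel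

end Cfsg.Agent.H698.U33.Clo
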