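import Cfsg.Agent.H698.U33.Clo.C0
import Cfsg.Agent.H698.U33.Clo.C1
import Cfsg.Agent.H698.U33.Clo.C2
import Cfsg.Agent.H698.U33.Clo.C3
import Cfsg.Agent.H698.U33.Clo.C4
import Cfsg.Agent.H698.U33.Clo.C5
import Cfsg.Agent.H698.U33.Clo.C6
import Cfsg.Agent.H698.U33.Clo.C7
import Cfsg.Agent.H698.U33.Clo.C8
import Cfsg.Agent.H698.U33.Clo.C9
import Cfsg.Agent.H698.U33.Clo.C10
import Cfsg.Agent.H698.U33.Clo.C11
import Cfsg.Agent.H698.U33.Clo.C12
import Cfsg.Agent.H698.U33.Clo.C13
import Cfsg.Agent.H698.U33.Clo.C14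
import Cfsg.Agent.H698.U33.Clo.C15
import Cfsg.Agent.H698.U33.Clo.C16
import Cfsg.Agent.H698.U33.Clo.C17
import Cfsg.Agent.H698.U33.Clo.C18
import Cfsg.Agent.H698.U33.Clo.C19
import Cfsg.Agent.H698.U33.Clo.C20
import Cfsg.Agent.H698.U33.Clo.C21
import Cfsg.Agent.H698.U33.Clo.C22
import Cfsg.Agent.H698.U33.Clo.C23

/-!
# S5525: the closure certificate, conclusion (helper698; data of helper819, helper763)
-/

set_option autoImplicit false
set_option maxRecDepth 100000
set_option Elab.async false

namespace Cfsg.Agent.H698.U33.Clo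

set_option maxRecDepth 100000 in
theorem om_valid : validb 18 om = true := by decide +kernel

set_option maxRecDepth 100000 in
theorem orb_ok : orbb ps18 rgR i0 orb = true := by decide +kernel

set_option maxRecDepth 100000 in
theorem xs_valid : (xs.all fun x => validb 18 x) = true := by decide +kernel

set_option maxRecDepth 100000 in
theorem gen_ok : genb 18 ps18 base7 rgR om gw = true := by decide +kernel

theorem closed : ∀ x ∈ xs, ∃ cs, closeb 18 ps18 base7 rgR om xs x orb cs = true := by
  intro x hx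
  rw [xs_eq] at hx
  simp only [List.mem_append] at hx
  rcases hx with hx | hx | hx | hx | hx | hx | hx | hx | hx | hx | hx | hx | hx | hx | hx | hx | hx | hx | hx | hx | hx | hx | hx | hx
  · exact c0 x hx
  · exact c1 x hx
  · exact c2 x hx
  · exact c3 x hx
  · exact c4 x hx
  · exact c5 x hx
  · exact c6 x hx
  · exact c7 x hx
  · exact c8 x hx
  · exact c9 x hx
  · exact c10 x hx
  · exact c11 x hx
  · exact c12 x hx
  · exact c13 x hx
  · exact c14 x hx
  · exact c15 x hx
  · exact c16 x hx
  · exact c17 x hx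
  · exact c18 x hx
  · exact c19 x hx
  · exact c20 x hx
  · exact c21 x hx
  · exact c22 x hx
  · exact c23 x hx

end Cfsg.Agent.H698.U33.Clo
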