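import Cfsg.Agent.H698.U33.Clo.Dat
import Cfsg.Agent.H698.U33.Rg

/-!
# S5525: the closure certificate, rows (helper698)
-/

set_option autoImplicit false

namespace Cfsg.Agent.H698.U33.Clo

/-- the rows of `l` are certified -/
def Rows (l : List (List ℕ)) : Prop := ∀ x ∈ l, ∃ cs, closeb 18 ps18 base7 rgR om xs x orb cs = true

theorem Rows.nil : Rows [] := fun _ h => absurd h List.not_mem_nil

theorem Rows.cons {x : List ℕ} {l : List (List ℕ)} {cs : List (ℕ × Bool × List ℕ)}
    (h : closeb 18 ps18 base7 rgR om xs x orb cs = true) (hl : Rows l) : Rows (x :: l) := by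
  intro y hy
  rcases List.mem_cons.1 hy with rfl | hy
  · exact ⟨cs, h⟩
  · exact hl y hy

end Cfsg.Agent.H698.U33.Clo
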